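import Mathlib

/-! S3935 piece: a point on the curve `τ ^ 3 - 4 τ = l + l⁻¹` in characteristic three. -/

set_option autoImplicit false

namespace Cfsg.Lib.BGK

open Finset Polynomial

theorem c3_sumz {F : Type*} [Field F] [Fintype F] [DecidableEq F] (e : ℤ) (h : e.natAbs < Fintype.card F - 1) :
    ∑ x : Fˣ, (x : F) ^ e = if e = 0 then -1 else 0 := by
  have key : ∑ x : Fˣ, (x : F) ^ e.natAbs = if e = 0 then -1 else 0 := by
    rw [FiniteField.sum_pow_units]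
    refine if_congr ⟨fun d => Int.natAbs_eq_zero.1 (Nat.eq_zero_of_dvd_of_lt d h), fun d => by simp [d]⟩ rfl rfl
  rw [← key]
  rcases Int.natAbs_eq e with e1 | e1
  · exact sum_congr rfl fun x _ => by conv_lhs => rw [e1, zpow_natCast]
  · refine Fintype.sum_equiv (Equiv.inv Fˣ) _ _ fun x => ?_
    conv_lhs => rw [e1, zpow_neg, zpow_natCast]
    simp

theorem c3_card {F : Type*} [Field F] [Fintype F] [DecidableEq F] (P : F[X]) (h : P ≠ 0) (f : F →+ F)
    (e : ∀ x, f x = P.eval x) : Nat.card f.ker ≤ P.natDegree := by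
  have : Nat.card f.ker = (univ.filter fun x => f x = 0).card := by
    rw [← Fintype.card_subtype, ← Nat.card_eq_fintype_card]; rfl
  rw [this]
  refine card_le_degree_of_subset_roots fun x hx => ?_
  rw [mem_roots h, IsRoot.def, ← e]
  exact (mem_filter.1 hx).2

theorem c3_cube {F : Type*} [Field F] [Fintype F] [CharP F 3] {r : ℕ} (hr : Fintype.card F = 3 ^ r) (c : F) :
    ∑ i ∈ range r, (c ^ 3) ^ 3 ^ i = ∑ i ∈ range r, c ^ 3 ^ i := by
  have h1 := sum_range_succ (fun i => c ^ 3 ^ i) r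
  have h2 := sum_range_succ' (fun i => c ^ 3 ^ i) r
  rw [← hr, FiniteField.pow_card] at h1
  simp only [pow_zero, pow_one, pow_succ' 3, pow_mul] at h2
  exact add_right_cancel (h2.symm.trans h1)

theorem c3_as {F : Type*} [Field F] [Fintype F] [CharP F 3] {r : ℕ} (hr : Fintype.card F = 3 ^ (r + 1)) {c : F}
    (h : ∑ i ∈ range (r + 1), c ^ 3 ^ i = 0) : ∃ τ : F, τ ^ 3 - τ = c := by
  classical
  haveI : Fact (Nat.Prime 3) := ⟨Nat.prime_three⟩
  let f : F →+ F := AddMonoidHom.mk' (fun x => x ^ 3 - x) fun a b => by rw [add_pow_char]; ring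
  let g : F →+ F := AddMonoidHom.mk' (fun x => ∑ i ∈ range (r + 1), x ^ 3 ^ i) fun a b => by
    simp only [add_pow_char_pow, sum_add_distrib]
  have h1 : Nat.card f.ker ≤ 3 := by
    refine (c3_card (X ^ 3 - X) (FiniteField.X_pow_card_sub_X_ne_zero F (by norm_num)) f fun x => by simp [f]).trans ?_
    rw [FiniteField.X_pow_card_sub_X_natDegree_eq F (by norm_num)]
  have h2 : Nat.card g.ker ≤ 3 ^ r := by
    refine (c3_card (∑ i ∈ range (r + 1), X ^ 3 ^ i) (fun e => ?_) g fun x => by simp [g, eval_finset_sum]).trans ?_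
    · have := congrArg (fun P : F[X] => P.coeff 1) e
      simp only [finset_sum_coeff, coeff_X_pow, coeff_zero] at this
      rw [sum_eq_single 0 (fun i _ hi => if_neg fun e => hi (by simpa using e.symm)) (by simp)] at this
      simp at this
    · refine natDegree_sum_le_of_forall_le _ _ fun i hi => ?_
      rw [natDegree_X_pow]
      exact Nat.pow_le_pow_right (by norm_num) (Nat.lt_succ_iff.1 (mem_range.1 hi))
  have h3 : f.range ≤ g.ker := by
    rintro _ ⟨x, rfl⟩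
    change g (x ^ 3 - x) = 0
    rw [map_sub, sub_eq_zero]
    exact c3_cube hr x
  have h4 := f.ker.card_mul_index
  rw [AddSubgroup.index_ker, Nat.card_eq_fintype_card (α := F), hr, pow_succ'] at h4
  have h5 : f.range = g.ker := AddSubgroup.eq_of_le_of_card_ge h3 (by
    have := Nat.mul_le_mul_right (Nat.card f.range) h1
    omega)
  exact h5.ge (h : c ∈ g.ker)

theorem c3_tr {F : Type*} [Field F] [Fintype F] [CharP F 3] {r : ℕ} (hr : Fintype.card F = 3 ^ (r + 3)) :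
    ∃ l : F, l ≠ 0 ∧ ∑ i ∈ range (r + 3), (l + l⁻¹) ^ 3 ^ i = 0 := by
  classical
  haveI : Fact (Nat.Prime 3) := ⟨Nat.prime_three⟩
  by_contra! h
  have h1 : ∀ l : F, l ≠ 0 → (∑ i ∈ range (r + 3), (l + l⁻¹) ^ 3 ^ i) ^ 2 = 1 := fun l hl => by
    have e := c3_cube hr (l + l⁻¹)
    simp only [← pow_mul, mul_comm 3] at e
    simp only [pow_mul] at e
    rw [← sum_pow_char] at e
    exact mul_left_cancel₀ (h l hl) (by linear_combination e)
  have hb : ∀ i ∈ range (r + 3), 1 ≤ 3 ^ i ∧ 3 ^ i ≤ 9 * 3 ^ r := fun i hi =>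
    ⟨Nat.one_le_pow _ _ (by norm_num), by
      rw [show 9 * 3 ^ r = 3 ^ (r + 2) by ring]
      exact Nat.pow_le_pow_right (by norm_num) (Nat.lt_succ_iff.1 (mem_range.1 hi))⟩
  have hq : Fintype.card F = 27 * 3 ^ r := by rw [hr]; ring
  have h0 : 1 ≤ 3 ^ r := Nat.one_le_pow _ _ (by norm_num)
  have h2 : ∑ x : Fˣ, (x : F) ^ (4 : ℤ) = 0 := by rw [c3_sumz _ (by rw [hq]; simp; omega), if_neg (by norm_num)]
  have h3 : ∀ i ∈ range (r + 3), ∀ j ∈ range (r + 3),
      ∑ x : Fˣ, (x : F) ^ (4 : ℤ) * (((x : F) + (x : F)⁻¹) ^ 3 ^ i * ((x : F) + (x : F)⁻¹) ^ 3 ^ j) =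
        (if j = 1 then if i = 0 then -1 else 0 else 0) + if j = 0 then if i = 1 then -1 else 0 else 0 := by
    intro i hi j hj
    have e : ∀ x : Fˣ, (x : F) ^ (4 : ℤ) * (((x : F) + (x : F)⁻¹) ^ 3 ^ i * ((x : F) + (x : F)⁻¹) ^ 3 ^ j) =
        (x : F) ^ (4 + (3 ^ i : ℕ) + (3 ^ j : ℕ) : ℤ) + (x : F) ^ (4 + (3 ^ i : ℕ) - (3 ^ j : ℕ) : ℤ) +
        (x : F) ^ (4 - (3 ^ i : ℕ) + (3 ^ j : ℕ) : ℤ) + (x : F) ^ (4 - (3 ^ i : ℕ) - (3 ^ j : ℕ) : ℤ) := fun x => by
      simp only [add_pow_char_pow, zpow_add₀ x.ne_zero, zpow_sub₀ x.ne_zero, zpow_natCast, inv_pow, div_eq_mul_inv]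
      ring
    have a := hb i hi
    have b := hb j hj
    have m : ∀ k, 3 ^ k = 1 ∧ k = 0 ∨ 3 ^ k = 3 ∧ k = 1 ∨ 9 ∣ 3 ^ k ∧ 2 ≤ k := fun k => by
      rcases k with - | - | k
      · simp
      · simp
      · exact Or.inr (Or.inr ⟨⟨3 ^ k, by ring⟩, by omega⟩)
    have c := m i
    have d := m j
    simp only [e, sum_add_distrib]
    generalize 3 ^ i = u at *
    generalize 3 ^ j = v at *
    rw [c3_sumz _ (by omega), c3_sumz _ (by omega), c3_sumz _ (by omega), c3_sumz _ (by omega),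
      if_neg (by omega), if_neg (by omega), if_neg (by omega)]
    split_ifs <;> first | omega | simp
  have h4 : ∑ x : Fˣ, (x : F) ^ (4 : ℤ) = ∑ i ∈ range (r + 3), ∑ j ∈ range (r + 3), ∑ x : Fˣ,
      (x : F) ^ (4 : ℤ) * (((x : F) + (x : F)⁻¹) ^ 3 ^ i * ((x : F) + (x : F)⁻¹) ^ 3 ^ j) := by
    simp only [sum_comm (t := univ), ← mul_sum, ← sum_mul, ← sq]
    exact sum_congr rfl fun x _ => by rw [h1 _ x.ne_zero, mul_one]
  rw [h2, sum_congr rfl fun i hi => sum_congr rfl (h3 i hi)] at h4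
  simp only [sum_add_distrib, sum_ite_eq', mem_range, show 1 < r + 3 by omega, show 0 < r + 3 by omega, if_true] at h4
  have h5 : ((3 : ℕ) : F) = 0 := CharP.cast_eq_zero F 3
  exact one_ne_zero (α := F) (by push_cast at h5; linear_combination h5 - h4)

/-- PAPER (q = 3^r, r ≥ 2; τ^3 - 4τ = τ^3 - τ; replace τ = 0 by τ = 1).  Let T c = Σ_{i<r} c^(3^i) (additive,
(T c)^3 = T c).  (a) T c = 0 → c = τ^3 - τ for some τ: the image V of the additive map τ ↦ τ^3 - τ has ≥ q/3 elements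
(kernel ≤ 3 roots), T vanishes on V (telescoping, τ^q = τ) and T has ≤ q/3 roots (degree 3^(r-1)).
(b) some unit l has T (l + l⁻¹) = 0.  q = 9: -1 is a square, l^2 = -1.  q ≥ 27: otherwise T (l + l⁻¹)^2 = 1 for all
units l, so 0 = Σ_l l^(-4) = Σ_l l^(-4) T(l+l⁻¹)^2 = Σ_{i,j<r} Σ_l l^(-4) (l^(3^i) + l^(-3^i)) (l^(3^j) + l^(-3^j)); by
`FiniteField.sum_pow_units` each Σ_l l^e is -1 if (q-1) ∣ e and 0 otherwise; here e = ±3^i ± 3^j - 4 has
|e| ≤ 2q/3 + 4 < q - 1, and e = 0 only for 3^i + 3^j = 4, i.e. (i,j) = (0,1), (1,0).  So the sum is -2 ≠ 0. -/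
theorem exists_cubic_three {F : Type*} [Field F] [Finite F] (h3 : (3 : F) = 0) (h4 : 4 ≤ Nat.card F) :
    ∃ τ l : F, τ ≠ 0 ∧ l ≠ 0 ∧ τ ^ 3 - 4 * τ = l + l⁻¹ := by
  classical
  haveI := Fintype.ofFinite F
  haveI : CharP F 3 := (CharP.charP_iff_prime_eq_zero Nat.prime_three).2 (by exact_mod_cast h3)
  obtain ⟨n, -, hn⟩ := FiniteField.card F 3
  have fin : ∀ τ l : F, l ≠ 0 → τ ^ 3 - τ = l + l⁻¹ → ∃ τ l : F, τ ≠ 0 ∧ l ≠ 0 ∧ τ ^ 3 - 4 * τ = l + l⁻¹ := by
    intro τ l hl e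
    rcases eq_or_ne τ 0 with rfl | h
    · exact ⟨1, l, one_ne_zero, hl, by linear_combination e - h3⟩
    · exact ⟨τ, l, h, hl, by linear_combination e - τ * h3⟩
  rw [Nat.card_eq_fintype_card, hn] at h4
  obtain ⟨r, hr⟩ := n
  rcases r with - | - | - | r
  · omega
  · simp at h4
  · obtain ⟨l, hl⟩ := FiniteField.isSquare_neg_one_iff.2 (show Fintype.card F % 4 ≠ 3 by rw [hn]; simp)
    have h0 : l ≠ 0 := by rintro rfl; simp at hl
    exact fin 0 l h0 (by field_simp; linear_combination hl)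
  · obtain ⟨l, hl, e⟩ := c3_tr (r := r) hn
    obtain ⟨τ, hτ⟩ := c3_as (r := r + 2) hn e
    exact fin τ l hl hτ

end Cfsg.Lib.BGK
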