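import Mathlib

/-! S3935 piece: a point on the curve `τ ^ 3 - 4 τ = l + l⁻¹` in characteristic at least five. -/

set_option autoImplicit false

namespace Cfsg.Lib.BGK

open Finset

theorem c5_conic {F : Type*} [Field F] [Fintype F] [DecidableEq F] (h2 : (2 : F) ≠ 0) (h3 : (3 : F) ≠ 0) :
    #{x : F × F | x.1 ^ 2 + x.1 * x.2 + x.2 ^ 2 = 4} ≤ Fintype.card F + 2 := by
  set C : Finset (F × F) := {x : F × F | x.1 ^ 2 + x.1 * x.2 + x.2 ^ 2 = 4} with hC
  have h1 : #(C.filter fun x => x.1 = 2) ≤ 2 := by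
    refine le_trans (card_le_card (t := {((2 : F), (0 : F)), (2, -2)}) ?_) (card_le_two)
    rintro ⟨a, b⟩ hx
    simp only [hC, mem_filter, mem_univ, true_and] at hx
    obtain ⟨e, rfl⟩ := hx
    have : b * (b + 2) = 0 := by linear_combination e
    rcases mul_eq_zero.1 this with h | h
    · simp [h]
    · simp [eq_neg_of_add_eq_zero_left h]
  have h2' : #(C.filter fun x => ¬ x.1 = 2) ≤ Fintype.card F := by
    rw [← card_univ]
    refine card_le_card_of_injOn (fun x => x.2 / (x.1 - 2)) (fun _ _ => mem_coe.2 (mem_univ _)) ?_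
    rintro ⟨a, b⟩ hx ⟨a', b'⟩ hy he
    simp only [hC, coe_filter, mem_filter, mem_univ, true_and, Set.mem_ofPred_eq] at hx hy
    obtain ⟨e, ha⟩ := hx
    obtain ⟨e', ha'⟩ := hy
    have ta : a - 2 ≠ 0 := sub_ne_zero.2 ha
    have ta' : a' - 2 ≠ 0 := sub_ne_zero.2 ha'
    simp only at he
    obtain ⟨m, hm⟩ : ∃ m, m = b / (a - 2) := ⟨_, rfl⟩
    have hb : b = m * (a - 2) := by rw [hm, div_mul_cancel₀ _ ta]
    have hb' : b' = m * (a' - 2) := by rw [hm, he, div_mul_cancel₀ _ ta']
    have k : 4 + 2 * m + (a - 2) * (1 + m + m ^ 2) = 0 := by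
      apply mul_left_cancel₀ ta
      rw [hb] at e
      linear_combination e
    have k' : 4 + 2 * m + (a' - 2) * (1 + m + m ^ 2) = 0 := by
      apply mul_left_cancel₀ ta'
      rw [hb'] at e'
      linear_combination e'
    have hq : 1 + m + m ^ 2 ≠ 0 := by
      intro h0
      rw [h0] at k
      have : m = -2 := by
        apply mul_left_cancel₀ h2
        linear_combination k
      rw [this] at h0
      exact h3 (by linear_combination h0)
    have : a = a' := by
      apply mul_right_cancel₀ hq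
      linear_combination k - k'
    subst this
    rw [hb, hb']
  have := card_filter_add_card_filter_not (s := C) (fun x => x.1 = 2)
  omega

theorem c5_image {F : Type*} [Field F] [Fintype F] [DecidableEq F] (h2 : (2 : F) ≠ 0) (h3 : (3 : F) ≠ 0) :
    Fintype.card F ≤ 2 * #(univ.image fun t : F => t ^ 3 - 4 * t) := by
  set f : F → F := fun t => t ^ 3 - 4 * t with hf
  set V := univ.image f with hV
  set q := Fintype.card F with hq
  have hs : q = ∑ c ∈ V, #{t | f t = c} := by
    rw [hq, ← card_univ]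
    exact card_eq_sum_card_image f univ
  have hp : ∑ c ∈ V, #{t | f t = c} ^ 2 = #{x : F × F | f x.1 = f x.2} := by
    rw [card_eq_sum_card_fiberwise (f := fun x : F × F => f x.1) (t := V)
      (fun x _ => mem_coe.2 (mem_image_of_mem f (mem_univ _)))]
    refine sum_congr rfl fun c _ => ?_
    rw [sq, ← card_product]
    congr 1
    ext ⟨a, b⟩
    simp only [mem_product, mem_filter, mem_univ, true_and]
    constructor
    · rintro ⟨h, h'⟩
      exact ⟨h.trans h'.symm, h⟩
    · rintro ⟨h, h'⟩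
      exact ⟨h', h.symm.trans h'⟩
  have hb : #{x : F × F | f x.1 = f x.2} ≤ q + (q + 2) := by
    refine le_trans (card_le_card (t := (univ.image fun a : F => (a, a)) ∪
      univ.filter fun x : F × F => x.1 ^ 2 + x.1 * x.2 + x.2 ^ 2 = 4) ?_) ?_
    · rintro ⟨a, b⟩ hx
      simp only [hf, mem_filter, mem_univ, true_and] at hx
      have : (a - b) * (a ^ 2 + a * b + b ^ 2 - 4) = 0 := by linear_combination hx
      rcases mul_eq_zero.1 this with h | h
      · exact mem_union_left _ (mem_image.2 ⟨a, mem_univ _, by rw [sub_eq_zero.1 h]⟩)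
      · exact mem_union_right _ (mem_filter.2 ⟨mem_univ _, sub_eq_zero.1 h⟩)
    · refine le_trans (card_union_le _ _) (add_le_add ?_ (c5_conic h2 h3))
      exact le_trans card_image_le (by rw [card_univ])
  have hc := sq_sum_le_card_mul_sum_sq (s := V) (f := fun c => #{t | f t = c})
  rw [← hs, hp] at hc
  have h4 : q ^ 2 ≤ #V * (q + (q + 2)) := le_trans hc (Nat.mul_le_mul_left _ hb)
  by_contra hlt
  have h5 : 2 * #V + 1 ≤ q := by omega
  nlinarith

theorem c5_trace {F : Type*} [Field F] [Fintype F] [DecidableEq F] (h2 : (2 : F) ≠ 0) :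
    Fintype.card F + 1 ≤ 2 * #((univ.erase (0 : F)).image fun l : F => l + l⁻¹) := by
  set g : F → F := fun l => l + l⁻¹ with hg
  have n1 : (1 : F) ≠ -1 := fun h => h2 (by linear_combination h)
  have n2 : (2 : F) ≠ -2 := fun h => (mul_ne_zero h2 h2) (by linear_combination h)
  set U : Finset F := univ \ {0, 1, -1} with hU
  have cU : Fintype.card F ≤ #U + 3 := by
    have h := le_card_sdiff ({0, 1, -1} : Finset F) univ
    have h' : #({0, 1, -1} : Finset F) ≤ 3 := card_le_three
    rw [card_univ, ← hU] at h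
    omega
  have mU : ∀ l ∈ U, l ≠ 0 ∧ l ≠ 1 ∧ l ≠ -1 := by
    intro l hl
    simpa [hU, not_or] using hl
  have h1 : #U ≤ 2 * #(U.image g) := by
    refine card_le_mul_card_image U 2 fun c hc => ?_
    obtain ⟨l, hl, rfl⟩ := mem_image.1 hc
    refine le_trans (card_le_card (t := {l, l⁻¹}) ?_) card_le_two
    intro x hx
    obtain ⟨hx, e⟩ := mem_filter.1 hx
    have x0 := (mU x hx).1
    have l0 := (mU l hl).1
    simp only [hg] at e
    have : (x - l) * (x * l - 1) = 0 := by
      field_simp at e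
      linear_combination e
    rcases mul_eq_zero.1 this with h | h
    · simp [sub_eq_zero.1 h]
    · simp [eq_inv_of_mul_eq_one_left (sub_eq_zero.1 h)]
  have k1 : (2 : F) ∉ U.image g := by
    intro h
    obtain ⟨l, hl, e⟩ := mem_image.1 h
    obtain ⟨l0, l1, -⟩ := mU l hl
    simp only [hg] at e
    have : (l - 1) ^ 2 = 0 := by
      field_simp at e
      linear_combination e
    exact l1 (sub_eq_zero.1 (pow_eq_zero_iff two_ne_zero |>.1 this))
  have k2 : (-2 : F) ∉ U.image g := by
    intro h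
    obtain ⟨l, hl, e⟩ := mem_image.1 h
    obtain ⟨l0, -, l1⟩ := mU l hl
    simp only [hg] at e
    have : (l + 1) ^ 2 = 0 := by
      field_simp at e
      linear_combination e
    exact l1 (eq_neg_of_add_eq_zero_left (pow_eq_zero_iff two_ne_zero |>.1 this))
  have h3 : #(insert (2 : F) (insert (-2) (U.image g))) = #(U.image g) + 2 := by
    rw [card_insert_of_notMem (by simp only [mem_insert, not_or]; exact ⟨n2, k1⟩), card_insert_of_notMem k2]
  have h4 : insert (2 : F) (insert (-2) (U.image g)) ⊆ (univ.erase (0 : F)).image g := by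
    intro c hc
    rcases mem_insert.1 hc with rfl | hc
    · exact mem_image.2 ⟨1, by simp, by simp only [hg]; norm_num⟩
    rcases mem_insert.1 hc with rfl | hc
    · exact mem_image.2 ⟨-1, by simp, by simp only [hg]; rw [inv_neg, inv_one]; norm_num⟩
    · obtain ⟨l, hl, e⟩ := mem_image.1 hc
      exact mem_image.2 ⟨l, by simp [(mU l hl).1], e⟩
  have := card_le_card h4
  omega

/-- PAPER (q = card F, f τ = τ^3 - 4τ).  S = {l + l⁻¹ | l ≠ 0} has at least (q+1)/2 elements (fibres of
l ↦ l + l⁻¹ on the q-1 units are {l, l⁻¹}, and the fibres of 1 and -1 are singletons).  V = image of f: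
q^2 = (Σ_{c ∈ V} #fibre c)^2 ≤ #V * Σ #fibre^2 (`sq_sum_le_card_mul_sum_sq`), and Σ #fibre^2 = #{(a,b) | f a = f b}
≤ q + #{(a,b) | a^2 + a b + b^2 = 4} ≤ q + (q + 2): a point (a,b) ≠ (2,0) of the conic is determined by the
slope b/(a-2) ∈ F ∪ {∞} (with a = 2 + t u, b = t v, t ≠ 0: t (u^2+uv+v^2) + (4u + 2v) = 0, and both brackets vanish only
if u = v = 0 since 2, 3 ≠ 0).  So #V ≥ q^2/(2q+2) > (q-1)/2, hence V meets S.  If the common value comes from τ = 0
replace τ by 2 (f 2 = 0 = f 0). -/
theorem exists_cubic_five {F : Type*} [Field F] [Finite F] (h2 : (2 : F) ≠ 0) (h3 : (3 : F) ≠ 0) :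
    ∃ τ l : F, τ ≠ 0 ∧ l ≠ 0 ∧ τ ^ 3 - 4 * τ = l + l⁻¹ := by
  classical
  have := Fintype.ofFinite F
  have hV := c5_image h2 h3
  have hS := c5_trace (F := F) h2
  have hd : ¬ Disjoint (univ.image fun t : F => t ^ 3 - 4 * t) ((univ.erase (0 : F)).image fun l : F => l + l⁻¹) := by
    intro hd
    have h := card_union_of_disjoint hd
    have h' := card_le_univ ((univ.image fun t : F => t ^ 3 - 4 * t) ∪
      ((univ.erase (0 : F)).image fun l : F => l + l⁻¹))
    omega
  obtain ⟨c, hc, hc'⟩ := not_disjoint_iff.1 hd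
  obtain ⟨t, -, rfl⟩ := mem_image.1 hc
  obtain ⟨l, hl, e⟩ := mem_image.1 hc'
  have l0 : l ≠ 0 := (mem_erase.1 hl).1
  by_cases t0 : t = 0
  · refine ⟨2, l, h2, l0, ?_⟩
    rw [e, t0]
    norm_num
  · exact ⟨t, l, t0, l0, e.symm⟩

end Cfsg.Lib.BGK
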