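import Cfsg.Agent.Lib.PSL2.Sub

/-! S3935: a non-trivial fixed point of the two-variable sequence, in `PSL(2, q)` and `SL(3, 3)`. -/

set_option autoImplicit false

namespace Cfsg.Lib.BGK

open Matrix Cfsg.Lib.PSL2
open scoped MatrixGroups

variable {G G' : Type*} [Group G] [Group G']

/-- The first word. -/
def v1 (x y : G) : G := x⁻¹ * x⁻¹ * y⁻¹ * x

/-- The step of the sequence. -/
def step (x y v : G) : G := (x * v * x⁻¹) * (y * v * y⁻¹) * (x * v * x⁻¹)⁻¹ * (y * v * y⁻¹)⁻¹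

theorem map_v1 (f : G →* G') (x y : G) : f (v1 x y) = v1 (f x) (f y) := by simp [v1]

theorem map_step (f : G →* G') (x y v : G) : f (step x y v) = step (f x) (f y) (f v) := by simp [step]

/-- The relation which makes the first word a non-trivial fixed point of the step. -/
def BK (G : Type*) [Group G] : Prop := ∃ x z : G, z * x * x ≠ 1 ∧ z * x * z⁻¹ * x * z = x * x * z * z * x * x

theorem bk_of_map (f : G →* G') (x z : G) (h1 : f (z * x * x) ≠ 1)
    (h2 : z * x * z⁻¹ * x * z = x * x * z * z * x * x) : BK G' :=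
  ⟨f x, f z, by simpa using h1, by simpa using congrArg f h2⟩

theorem BK.of_equiv (e : G ≃* G') (h : BK G') : BK G := by
  obtain ⟨x, z, h1, h2⟩ := h
  exact bk_of_map e.symm.toMonoidHom x z (fun h => h1 ((map_eq_one_iff _ e.symm.injective).1 h)) h2

theorem BK.fixed (h : BK G) : ∃ x y : G, v1 x y ≠ 1 ∧ step x y (v1 x y) = v1 x y := by
  obtain ⟨x, z, h1, h2⟩ := h
  refine ⟨x, x * z, fun h => h1 ?_, ?_⟩
  · rw [← inv_eq_one, ← h, v1]; group
  · calc _ = x⁻¹ * x⁻¹ * x⁻¹ * z⁻¹ * (x * x * z * z * x * x) * z⁻¹ * x⁻¹ := by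
          simp only [step, v1, _root_.mul_inv_rev, inv_inv, mul_assoc, inv_mul_cancel_left, mul_inv_cancel_left]
      _ = _ := by rw [← h2, v1]; group

theorem bk_of_five {e i : G} (h1 : e ≠ 1) (h5 : e ^ 5 = 1) (hi : i * i = 1) (h4 : (i * e * e * i * e) ^ 4 = 1) :
    BK G := by
  have ii : i⁻¹ = i := inv_eq_of_mul_eq_one_right hi
  have i2 : ∀ g, i * (i * g) = g := fun g => by rw [← mul_assoc, hi, one_mul]
  have e3 : ∀ g, e⁻¹ * (e⁻¹ * (e⁻¹ * g)) = e * (e * g) := fun g => by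
    rw [← one_mul (e⁻¹ * _), ← h5]; simp only [pow_succ, pow_zero, one_mul, mul_assoc, mul_inv_cancel_left]
  have h3 : (e⁻¹ * i * e⁻¹) * (e⁻¹ * i * e⁻¹) = (i * e * e * i * e)⁻¹ * e⁻¹ := by
    simp only [_root_.mul_inv_rev, ii, mul_assoc]
  have h6 : e⁻¹ * i * e⁻¹ * (i * e * e * i * e) * (e⁻¹ * i * e⁻¹) * (i * e * e * i * e)⁻¹ =
      e⁻¹ * (i * e * e * i * e) * e⁻¹ := by
    simp only [_root_.mul_inv_rev, ii, mul_assoc, mul_inv_cancel_left, i2, mul_inv_cancel, mul_one]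
    rw [← e3]
  refine ⟨e⁻¹ * i * e⁻¹, (i * e * e * i * e)⁻¹, fun h => h1 ?_, ?_⟩
  all_goals generalize i * e * e * i * e = w at *
  · rw [mul_assoc, h3, ← mul_assoc, mul_inv_eq_one] at h
    have h2 : e ^ 2 = 1 := by
      rw [← h, ← inv_eq_one, ← h4]; group
    rw [← h5, show 5 = 2 * 2 + 1 from rfl, pow_succ, pow_mul, h2, one_pow, one_mul]
  · calc _ = w⁻¹ * (e⁻¹ * i * e⁻¹ * w * (e⁻¹ * i * e⁻¹) * w⁻¹) := by group
      _ = w⁻¹ * e⁻¹ * (w ^ 4)⁻¹ * w * e⁻¹ := by rw [h6, h4]; group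
      _ = (w⁻¹ * e⁻¹) * w⁻¹ * w⁻¹ * (w⁻¹ * e⁻¹) := by group
      _ = _ := by rw [← h3]; group

theorem bk_L33 : BK SL(3, ZMod 3) :=
  ⟨⟨!![0, 1, 0; 1, 1, 0; 1, 0, 2], by decide⟩, ⟨!![0, 0, 2; 1, 2, 1; 2, 0, 2], by decide⟩,
    fun h => absurd (congrArg Subtype.val h) (by decide +kernel), Subtype.ext (by decide +kernel)⟩

section PSL
variable {F : Type*} [Field F]

theorem exists_conic [Finite F] {t z u : F} (h : t ^ 2 ≠ 4 ∨ ((2 : F) ≠ 0 ∧ 2 * u ≠ z * t)) :
    ∃ a b : F, a ^ 2 + t * a * b + b ^ 2 - z * a - u * b + 1 = 0 := by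
  let := Fintype.ofFinite F
  by_cases h2 : (2 : F) = 0
  · have ht : t ≠ 0 := by
      rintro rfl
      exact h.elim (fun h => h (by linear_combination -2 * h2)) fun h => h.1 h2
    have : CharP F 2 := (CharP.charP_iff_prime_eq_zero Nat.prime_two).2 h2
    obtain ⟨a, ha⟩ := FiniteField.isSquare_of_char_two (ringChar.eq F 2) ((z / t) ^ 2 - u * (z / t) + 1)
    refine ⟨a, z / t, ?_⟩
    have : t * (z / t) = z := by field_simp
    linear_combination a * this - ha + ((z / t) ^ 2 - u * (z / t) + 1) * h2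
  have k : ∀ a b : F, (2 * a) ^ 2 - 2 * z * (2 * a) + 4 + ((4 - t ^ 2) * b ^ 2 + (2 * z * t - 4 * u) * b) = 0 →
      ∃ a b : F, a ^ 2 + t * a * b + b ^ 2 - z * a - u * b + 1 = 0 := fun a b e =>
    ⟨a - t * b / 2, b, mul_left_cancel₀ (pow_ne_zero 2 h2) (by field_simp; linear_combination e)⟩
  by_cases ht : t ^ 2 = 4
  · have h3 : z * t - 2 * u ≠ 0 := sub_ne_zero.2 (h.resolve_left (not_not.2 ht)).2.symm
    refine k 0 (-2 / (z * t - 2 * u)) ?_
    rw [ht]; field_simp; ring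
  · open Polynomial in
    obtain ⟨a, b, e⟩ := FiniteField.exists_root_sum_quadratic
      (f := C 1 * X ^ 2 + C (-(2 * z)) * X + C 4) (g := C (4 - t ^ 2) * X ^ 2 + C (2 * z * t - 4 * u) * X + C 0)
      (degree_quadratic one_ne_zero) (degree_quadratic (sub_ne_zero.2 (Ne.symm ht))) (by
        rw [← Nat.card_eq_fintype_card]; exact Nat.odd_iff.1 (two_ne_zero_iff_odd.1 h2))
    refine k (a / 2) b ?_
    simp at e
    rw [mul_div_cancel₀ _ h2]
    linear_combination e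

theorem bk_psl [Finite F] {t l : F} (ht : t ≠ 0) (hl : l ≠ 0) (h : t ^ 3 - 4 * t = l + l⁻¹) : BK PSL(2, F) := by
  obtain ⟨w, n, hw, h1⟩ : ∃ w n, t * w = 1 ∧ n ^ 2 - (t ^ 2 - 4) * n + w ^ 2 = 0 :=
    ⟨t⁻¹, l / t, mul_inv_cancel₀ ht, by field_simp at h ⊢; linear_combination -h⟩
  clear h ht hl
  obtain ⟨a, b, e⟩ := exists_conic (t := t) (z := 1 + n) (u := t - w) (by
    by_cases h4 : t ^ 2 = 4
    · exact Or.inr ⟨fun h2 => by grind, fun e => by grind⟩
    · exact Or.inl h4)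
  obtain ⟨x, hx⟩ : ∃ x : SL(2, F), (x : Matrix (Fin 2) (Fin 2) F) = !![t, -1; 1, 0] :=
    ⟨⟨_, by simp [det_fin_two]⟩, rfl⟩
  obtain ⟨z, hz⟩ : ∃ z : SL(2, F), (z : Matrix (Fin 2) (Fin 2) F) = !![a, b; t * a + b - (t - w), 1 + n - a] :=
    ⟨⟨_, by simp [det_fin_two]; linear_combination -e⟩, rfl⟩
  refine bk_of_map toL x z (fun h => ?_) (Subtype.ext ?_)
  · clear e
    rcases toL_eq_one_iff.1 h with h | h
    all_goals
      have h0 : ((z * x * x : SL(2, F)) : Matrix (Fin 2) (Fin 2) F) = _ := congrArg Subtype.val h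
      clear h
      simp only [Matrix.SpecialLinearGroup.coe_mul, hx, hz, mul_fin_two] at h0
      have h2 := congrFun (congrFun h0 0) 0
      have h3 := congrFun (congrFun h0 0) 1
      have h4 := congrFun (congrFun h0 1) 0
      have h5 := congrFun (congrFun h0 1) 1
      clear h0 hx hz
      simp at h2 h3 h4 h5
      grind
  · change ((z * x * z⁻¹ * x * z : SL(2, F)) : Matrix (Fin 2) (Fin 2) F) =
      ((x * x * z * z * x * x : SL(2, F)) : Matrix (Fin 2) (Fin 2) F)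
    simp only [Matrix.SpecialLinearGroup.coe_mul, Matrix.SpecialLinearGroup.coe_inv, hx, hz, adjugate_fin_two_of,
      mul_fin_two]
    ext i j
    fin_cases i <;> fin_cases j <;> simp only [Fin.zero_eta, Fin.mk_one, Fin.isValue, of_apply, cons_val', cons_val_zero,
      cons_val_one, cons_val_fin_one]
    · linear_combination (-a - n - t ^ 4 + 3 * t ^ 2 - 2) * e + (-a + t ^ 2) * h1 +
        (-a * n + a + n * t ^ 2 - n + t ^ 2 - t * w - 2) * hw
    · linear_combination (n * t - b + t ^ 3 - 2 * t + w) * e + (-b - t) * h1 + (-n * b - n * t + b - t + w) * hw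
    · linear_combination (-a * t - n * t - b - t ^ 3 + 3 * t - 2 * w) * e + (-a * t - b + 2 * t - w) * h1 +
        (-a * n * t + a * t - n * b + 2 * n * t - n * w + b) * hw
    · linear_combination (a + n * t ^ 2 - 2 * n + t ^ 2 + t * w - 3) * e + (a - n - t * w) * h1 +
        (a * n - a - n * t ^ 2 + 3 * n + w ^ 2 - 1) * hw

end PSL

end Cfsg.Lib.BGK
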