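import Cfsg.Agent.Lib.BGK.Sz
import Cfsg.Agent.Lib.BGK.Cubic3
import Cfsg.Agent.Lib.BGK.Cubic5
import Cfsg.Agent.Lib.NG.Tri

/-! S3935: each group of Thompson's list has a non-trivial fixed point of the two-variable sequence. -/

set_option autoImplicit false

namespace Cfsg.Lib.BGK

open Cfsg.Lib.NG

theorem exists_cubic_two {F : Type*} [Field F] [Finite F] (h2 : (2 : F) = 0) (h4 : 4 ≤ Nat.card F) :
    ∃ τ l : F, τ ≠ 0 ∧ l ≠ 0 ∧ τ ^ 3 - 4 * τ = l + l⁻¹ := by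
  have : CharP F 2 := (CharP.charP_iff_prime_eq_zero Nat.prime_two).2 h2
  by_cases h : ∃ w : F, w ^ 2 + w + 1 = 0
  · obtain ⟨w, hw⟩ := h
    have h0 : w ≠ 0 := by grind
    exact ⟨1, w, one_ne_zero, h0, by field_simp; grind⟩
  have h3 : Function.Injective fun x : F => x ^ 3 := fun x y (e : x ^ 3 = y ^ 3) => by_contra fun hxy => by
    have h0 : y ≠ 0 := by rintro rfl; exact hxy (by simpa using e)
    exact h ⟨x / y, by field_simp; grind⟩
  obtain ⟨l, h0, h1⟩ : ∃ l : F, l ≠ 0 ∧ l ≠ 1 := by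
    by_contra! hc
    have := Nat.card_le_card_of_surjective (![0, 1] : Fin 2 → F) fun x => by
      by_cases hx : x = 0
      exacts [⟨0, hx.symm⟩, ⟨1, (hc x hx).symm⟩]
    rw [Nat.card_fin] at this
    omega
  obtain ⟨t, ht⟩ := Finite.surjective_of_injective h3 (l + l⁻¹)
  refine ⟨t, l, ?_, h0, by grind⟩
  rintro rfl
  field_simp at ht
  grind

theorem exists_cubic {F : Type*} [Field F] [Finite F] (h4 : 4 ≤ Nat.card F) :
    ∃ τ l : F, τ ≠ 0 ∧ l ≠ 0 ∧ τ ^ 3 - 4 * τ = l + l⁻¹ := by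
  by_cases h2 : (2 : F) = 0
  · exact exists_cubic_two h2 h4
  by_cases h3 : (3 : F) = 0
  · exact exists_cubic_three h3 h4
  · exact exists_cubic_five h2 h3

theorem bk_of_minList {G : Type*} [Group G] (h : MinList G) : BK G := by
  rcases h with ⟨F, _, _, h, ⟨e⟩⟩ | ⟨F, _, _, m, hm, hF, ⟨M⟩⟩ | ⟨⟨e⟩⟩
  · obtain ⟨t, l, h1, h2, h3⟩ := exists_cubic (F := F) h.four_le
    exact (bk_psl h1 h2 h3).of_equiv e
  · exact bk_sz M (exists_ne_of_prime hm hF).1 hF (exists_ne_of_prime hm hF).2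
  · exact bk_L33.of_equiv e

end Cfsg.Lib.BGK
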