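import Cfsg.Agent.Lib.Sz.Trace
import Cfsg.Agent.Lib.Sz.Subfield

/-! S3935 piece: a Suzuki field of order at least 32 has an element on which a certain trace does not vanish. -/

set_option autoImplicit false

namespace Cfsg.Lib.BGK

open Cfsg.Lib.Sz

theorem szas_cases {m i : ℕ} (hi : i < 2 * m + 1) :
    (i < m ∧ 1 ≤ 2 ^ i ∧ 2 * 2 ^ i ≤ 2 ^ m) ∨ (i = m ∧ 2 ^ i = 2 ^ m) ∨
      (m < i ∧ ∃ v, 2 ^ i = 2 * 2 ^ m * v ∧ 1 ≤ v ∧ (4 * v ≤ 2 ^ m ∨ 2 * v = 2 ^ m)) := by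
  rcases lt_trichotomy i m with h | rfl | h
  · refine Or.inl ⟨h, Nat.one_le_two_pow, ?_⟩
    rw [← pow_succ']
    exact Nat.pow_le_pow_right (by norm_num) h
  · exact Or.inr (Or.inl ⟨rfl, rfl⟩)
  · obtain ⟨k, rfl⟩ := Nat.exists_eq_add_of_lt h
    refine Or.inr (Or.inr ⟨h, 2 ^ k, by ring, Nat.one_le_two_pow, ?_⟩)
    rcases eq_or_lt_of_le (show k + 1 ≤ m by omega) with h1 | h1
    · right; rw [← h1]; ring
    · left
      rw [show 4 * 2 ^ k = 2 ^ (k + 2) by ring]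
      exact Nat.pow_le_pow_right (by norm_num) h1

/-- PAPER.  T = 2^m ≥ 4, N = 2T^2 - 1 = 2^(2m+1) - 1, u = 2^i.  Cases u ∣ T (u = T or u ≤ T/2) and u = 2 T u' with
u' ∣ T/2, where 2T^2 ≡ 1: (2T-1) u ≡ (2-2T) u', so j ≡ (2T-2) u' < N (u' = 1 gives 2T-2, u' ≥ 2 gives ≥ 4T-4).
For u ∣ T: 0 < j + (2T-1) u < 2N, so j = N - (2T-1) u, which is T-1 for u = T and ≥ 3T-1 for u ≤ T/2. -/
theorem arith_one {m i j : ℕ} (hm : 2 ≤ m) (hi : i < 2 * m + 1)
    (hj : j < 2 ^ m ∨ (2 * 2 ^ m ≤ j ∧ j < 3 * 2 ^ m - 1)) :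
    2 ^ (2 * m + 1) - 1 ∣ j + (2 * 2 ^ m - 1) * 2 ^ i ↔ i = m ∧ j = 2 ^ m - 1 := by
  have hT : 4 ≤ 2 ^ m := Nat.pow_le_pow_right (n := 2) (by norm_num) hm
  have hq : 2 ^ (2 * m + 1) = 2 * (2 ^ m * 2 ^ m) := by ring
  have hc := szas_cases hi
  rw [hq]
  generalize 2 ^ m = T at *
  generalize 2 ^ i = u at *
  have hTT : 4 * T ≤ T * T := Nat.mul_le_mul_right T hT
  rw [← Int.natCast_dvd_natCast, Nat.cast_add, Nat.cast_mul, Nat.cast_sub (by omega), Nat.cast_sub (by omega)]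
  push_cast
  have hj3 : (j : ℤ) < 3 * T - 1 := by omega
  have hT' : (4 : ℤ) ≤ T := by exact_mod_cast hT
  have hj0 : (0 : ℤ) ≤ j := by positivity
  constructor
  · intro h
    rcases hc with ⟨-, h1, h2⟩ | ⟨h1, rfl⟩ | ⟨-, v, rfl, h1, h2⟩
    · have h1' : (1 : ℤ) ≤ u := by exact_mod_cast h1
      have h2' : 2 * (u : ℤ) ≤ T := by exact_mod_cast h2
      have h3 := Int.eq_zero_of_dvd_of_nonneg_of_lt (by nlinarith) (by nlinarith) h
      nlinarith
    · refine ⟨h1, ?_⟩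
      have h3 : (2 * ((u : ℤ) * u) - 1) ∣ j - (u - 1) :=
        (dvd_sub h (dvd_refl _)).trans (dvd_of_eq (by ring))
      have h4 := Int.eq_zero_of_abs_lt_dvd h3 (by rw [abs_lt]; constructor <;> nlinarith)
      omega
    · have h1' : (1 : ℤ) ≤ v := by exact_mod_cast h1
      have h2' : 2 * (v : ℤ) ≤ T := by rcases h2 with h2 | h2 <;> omega
      have h3 : (2 * ((T : ℤ) * T) - 1) ∣ j - (2 * T - 2) * v :=
        (dvd_sub h (dvd_mul_right _ (2 * (v : ℤ)))).trans (dvd_of_eq (by push_cast; ring))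
      have h4 := Int.eq_zero_of_abs_lt_dvd h3 (by rw [abs_lt]; constructor <;> nlinarith)
      exfalso
      rcases eq_or_lt_of_le h1' with h5 | h5
      · rw [← h5] at h4; omega
      · nlinarith
  · rintro ⟨h1, h2⟩
    rcases hc with ⟨h3, -⟩ | ⟨-, rfl⟩ | ⟨h3, -⟩
    · omega
    · have : (j : ℤ) = u - 1 := by omega
      rw [this]
      exact ⟨1, by ring⟩
    · omega

/-- PAPER.  The condition is j ≡ (4T-3) u mod N.  u ≤ T/2: j = (4T-3) u ≥ 3T-1.  u = T: j = 2T^2 + 1 - 3T.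
u = 2 T u', u' ∣ T/2: j ≡ -(6T-4) u'; u' = T/2 gives j = T^2 + 2T - 2, u' ≤ T/4 gives j = N - (6T-4) u' ≥ 3T - 1. -/
theorem arith_two {m i j : ℕ} (hm : 2 ≤ m) (hi : i < 2 * m + 1)
    (hj : j < 2 ^ m ∨ (2 * 2 ^ m ≤ j ∧ j < 3 * 2 ^ m - 1)) :
    ¬ 2 ^ (2 * m + 1) - 1 ∣ j + (2 ^ (2 * m + 1) + 2 - 4 * 2 ^ m) * 2 ^ i := by
  have hT : 4 ≤ 2 ^ m := Nat.pow_le_pow_right (n := 2) (by norm_num) hm
  have hq : 2 ^ (2 * m + 1) = 2 * (2 ^ m * 2 ^ m) := by ring
  have hc := szas_cases hi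
  rw [hq]
  generalize 2 ^ m = T at *
  generalize 2 ^ i = u at *
  have hTT : 4 * T ≤ T * T := Nat.mul_le_mul_right T hT
  rw [← Int.natCast_dvd_natCast, Nat.cast_add, Nat.cast_mul, Nat.cast_sub (by omega), Nat.cast_sub (by omega)]
  push_cast
  have hj3 : (j : ℤ) < 3 * T - 1 := by omega
  have hT' : (4 : ℤ) ≤ T := by exact_mod_cast hT
  have hj0 : (0 : ℤ) ≤ j := by positivity
  intro h
  rcases hc with ⟨-, h1, h2⟩ | ⟨h1, rfl⟩ | ⟨-, v, rfl, h1, h2⟩
  · have h1' : (1 : ℤ) ≤ u := by exact_mod_cast h1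
    have h2' : 2 * (u : ℤ) ≤ T := by exact_mod_cast h2
    have h3 : (2 * ((T : ℤ) * T) - 1) ∣ j - (4 * T - 3) * u :=
        (dvd_sub h (dvd_mul_right _ (u : ℤ))).trans (dvd_of_eq (by ring))
    have h4 := Int.eq_zero_of_abs_lt_dvd h3 (by rw [abs_lt]; constructor <;> nlinarith)
    nlinarith
  · have h3 : (2 * ((u : ℤ) * u) - 1) ∣ j + 3 * u - 2 :=
        (dvd_sub h (dvd_mul_right _ ((u : ℤ) - 2))).trans (dvd_of_eq (by ring))
    have h4 := Int.eq_zero_of_dvd_of_nonneg_of_lt (by nlinarith) (by nlinarith) h3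
    omega
  · have h1' : (1 : ℤ) ≤ v := by exact_mod_cast h1
    have h3 : (2 * ((T : ℤ) * T) - 1) ∣ j + (6 * T - 4) * v :=
        (dvd_sub h (dvd_mul_right _ ((2 * T - 4) * (v : ℤ)))).trans (dvd_of_eq (by push_cast; ring))
    rcases h2 with h2 | h2
    · have h2' : 4 * (v : ℤ) ≤ T := by exact_mod_cast h2
      have h4 := Int.eq_zero_of_dvd_of_nonneg_of_lt (by nlinarith) (by nlinarith) h3
      nlinarith
    · have h2' : (T : ℤ) = 2 * v := by exact_mod_cast h2.symm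
      have h4 : (2 * ((T : ℤ) * T) - 1) ∣ j + (T - 1) ^ 2 :=
        (dvd_sub h3 (dvd_refl _)).trans (dvd_of_eq (by rw [h2']; ring))
      have h5 := Int.eq_zero_of_dvd_of_nonneg_of_lt (by positivity) (by nlinarith) h4
      nlinarith

/-- The absolute trace, written as a sum of powers. -/
def szasTr (F : Type*) [Field F] (n : ℕ) (w : F) : F := ∑ i ∈ Finset.range n, w ^ 2 ^ i

theorem szasTr_add {F : Type*} [Field F] [CharP F 2] (n : ℕ) (x y : F) :
    szasTr F n (x + y) = szasTr F n x + szasTr F n y := by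
  simp only [szasTr, add_pow_char_pow, Finset.sum_add_distrib]

theorem szasTr_pow {F : Type*} [Field F] [Fintype F] {n : ℕ} (hq : Fintype.card F = 2 ^ n) (x : F) (k : ℕ) :
    szasTr F n (x ^ 2 ^ k) = szasTr F n x := by
  induction k with
  | zero => simp
  | succ k ih =>
    rw [← ih, pow_succ, pow_mul]
    generalize x ^ 2 ^ k = y
    have h1 := Finset.sum_range_succ (fun i => y ^ 2 ^ i) n
    rw [Finset.sum_range_succ', ← hq, FiniteField.pow_card, pow_zero, pow_one, add_left_inj] at h1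
    rw [szasTr, szasTr, ← h1]
    refine Finset.sum_congr rfl fun i _ => ?_
    rw [← pow_mul, ← pow_succ']

theorem szas_expand {F : Type*} [Field F] [CharP F 2] (m : ℕ) (y : F) :
    (y + 1) ^ (3 * 2 ^ m - 1) + y ^ (3 * 2 ^ m - 1) =
      ∑ j ∈ Finset.range (2 ^ m), y ^ j + ∑ j ∈ Finset.range (2 ^ m - 1), y ^ (2 * 2 ^ m + j) := by
  have hT : 1 ≤ 2 ^ m := Nat.one_le_two_pow
  have h1 : (y + 1) ^ (2 ^ m - 1) = ∑ j ∈ Finset.range (2 ^ m), y ^ j := by
    have h2 : ((Polynomial.X : Polynomial F) + 1) ^ (2 ^ m - 1) =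
        ∑ j ∈ Finset.range (2 ^ m), (Polynomial.X : Polynomial F) ^ j := by
      have h3 : (Polynomial.X : Polynomial F) - 1 ≠ 0 := Polynomial.X_sub_C_ne_zero 1
      refine mul_right_cancel₀ h3 ?_
      rw [geom_sum_mul, CharTwo.sub_eq_add, CharTwo.sub_eq_add, ← pow_succ, Nat.sub_add_cancel hT,
        add_pow_char_pow, one_pow]
    simpa [Polynomial.eval_finsetSum] using congrArg (Polynomial.eval y) h2
  have h4 : (y + 1) ^ (2 * 2 ^ m) = y ^ (2 * 2 ^ m) + 1 := by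
    rw [← pow_succ', add_pow_char_pow, one_pow]
  have h5 : ∑ j ∈ Finset.range (2 ^ m), y ^ (2 * 2 ^ m + j) =
      ∑ j ∈ Finset.range (2 ^ m - 1), y ^ (2 * 2 ^ m + j) + y ^ (3 * 2 ^ m - 1) := by
    conv_lhs => rw [← Nat.sub_add_cancel hT, Finset.sum_range_succ]
    congr 2
    · simp only [Nat.sub_add_cancel hT]
    · omega
  rw [show (y + 1) ^ (3 * 2 ^ m - 1) = (y + 1) ^ (2 * 2 ^ m) * (y + 1) ^ (2 ^ m - 1) by
    rw [← pow_add]; congr 1; omega, h1, h4, add_mul, one_mul, Finset.mul_sum]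
  simp only [← pow_add]
  rw [h5, add_comm _ (∑ j ∈ Finset.range (2 ^ m), y ^ j), add_assoc, add_assoc, CharTwo.add_self_eq_zero,
    add_zero]

/-- PAPER.  T = 2^m, σ x = x^(2T) (`Tits.σ_eq_pow`), A y = σ y / y + y^3 / (σ y)^2 (A 0 = 0 = A 1),
τ w = Σ_{i<2m+1} w^(2^i) is additive and vanishes on AS (τ (σ s) = τ s, as τ (s^2) = τ s).  If the claim fails,
τ (A (x+1)) = τ (A x) for every x ∈ F.  Multiply by x^k, k = 3T-1, and sum over x:
Σ_y ((y+1)^k + y^k) τ (A y) = 0.  Now (y+1)^k = (y+1)^(T-1) (y^(2T)+1) and (y+1)^(T-1) = Σ_{j<T} y^j, so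
(y+1)^k + y^k = Σ_{j<T} y^j + Σ_{j<T-1} y^(2T+j).  For a unit y, A y = y^(2T-1) + y^(q+2-4T).  By
`FiniteField.sum_pow_units`, `arith_one`, `arith_two` exactly one of the power sums is -1 = 1, so the total is 1. -/
theorem exists_not_AS {F G : Type*} [Field F] [Finite F] [Group G] (M : Model F G) {m : ℕ} (hm : 2 ≤ m)
    (hF : Nat.card F = 2 ^ (2 * m + 1)) :
    ∃ x : F, M.σ x / x + x ^ 3 / M.σ x ^ 2 + ((M.σ x + 1) / (x + 1) + (x + 1) ^ 3 / (M.σ x + 1) ^ 2) ∉ M.AS := by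
  classical
  have := M.charP
  have := Fintype.ofFinite F
  have hq : Fintype.card F = 2 ^ (2 * m + 1) := Nat.card_eq_fintype_card.symm.trans hF
  have hσ : ∀ x, M.σ x = x ^ 2 ^ (m + 1) := M.toTits.σ_eq_pow hF
  have hT : 4 ≤ 2 ^ m := Nat.pow_le_pow_right (n := 2) (by norm_num) hm
  by_contra! hall
  set A : F → F := fun y => M.σ y / y + y ^ 3 / M.σ y ^ 2 with hA
  set τ := szasTr F (2 * m + 1) with hτ
  have h1 : ∀ x, τ (A (x + 1)) = τ (A x) := fun x => by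
    obtain ⟨s, hs⟩ := M.mem_AS.1 (hall x)
    have h2 : τ (A x + A (x + 1)) = 0 := by
      have : A x + A (x + 1) = M.σ s + s := by rw [hs]; simp only [hA, map_add, map_one]
      rw [this, hτ, szasTr_add, hσ, szasTr_pow hq, CharTwo.add_self_eq_zero]
    rw [hτ, szasTr_add] at h2
    exact (CharTwo.add_eq_zero.1 h2).symm
  have h0 : τ (A 0) = 0 := by simp [hA, hτ, szasTr]
  have hS : ∀ j, (j < 2 ^ m ∨ (2 * 2 ^ m ≤ j ∧ j < 3 * 2 ^ m - 1)) →
      ∑ y : F, y ^ j * τ (A y) = if j = 2 ^ m - 1 then -1 else 0 := fun j hj => by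
    rw [← Fintype.sum_of_injective (fun y : Fˣ => (y : F)) Units.val_injective
      (fun y : Fˣ => (y : F) ^ j * τ (A y)) _ (fun y hy => by
        obtain rfl : y = 0 := by
          by_contra h
          exact hy ⟨Units.mk0 y h, rfl⟩
        rw [h0, mul_zero]) (fun _ => rfl)]
    have h3 : ∀ y : Fˣ, (y : F) ^ j * τ (A y) = ∑ i ∈ Finset.range (2 * m + 1),
        ((y : F) ^ (j + (2 * 2 ^ m - 1) * 2 ^ i) + (y : F) ^ (j + (2 ^ (2 * m + 1) + 2 - 4 * 2 ^ m) * 2 ^ i)) :=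
      fun y => by
        have h4 : A y = (y : F) ^ (2 * 2 ^ m - 1) + (y : F) ^ (2 ^ (2 * m + 1) + 2 - 4 * 2 ^ m) := by
          have hy := y.ne_zero
          have h5 : (y : F) ^ 2 ^ (2 * m + 1) = y := by rw [← hq]; exact FiniteField.pow_card _
          have h6 : 4 * 2 ^ m ≤ 2 ^ (2 * m + 1) := by
            rw [show 2 ^ (2 * m + 1) = 2 * 2 ^ m * 2 ^ m by ring]
            exact Nat.mul_le_mul_right _ (by omega)
          simp only [hA, hσ]
          congr 1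
          · rw [div_eq_iff hy, ← pow_succ]
            congr 1
            rw [pow_succ]; omega
          · rw [div_eq_iff (pow_ne_zero _ (pow_ne_zero _ hy)), ← pow_mul, ← pow_add,
              show 2 ^ (2 * m + 1) + 2 - 4 * 2 ^ m + 2 ^ (m + 1) * 2 = 2 ^ (2 * m + 1) + 2 by
                rw [pow_succ 2 m]; omega, pow_add, h5]
            ring
        rw [h4, hτ, szasTr, Finset.mul_sum]
        refine Finset.sum_congr rfl fun i _ => ?_
        rw [add_pow_char_pow, mul_add, ← pow_mul, ← pow_mul, ← pow_add, ← pow_add]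
    simp only [h3]
    rw [Finset.sum_comm]
    have h7 : ∀ i ∈ Finset.range (2 * m + 1), ∑ y : Fˣ,
        ((y : F) ^ (j + (2 * 2 ^ m - 1) * 2 ^ i) + (y : F) ^ (j + (2 ^ (2 * m + 1) + 2 - 4 * 2 ^ m) * 2 ^ i)) =
        if i = m then (if j = 2 ^ m - 1 then -1 else 0) else 0 := fun i hi => by
      rw [Finset.mem_range] at hi
      rw [Finset.sum_add_distrib, FiniteField.sum_pow_units, FiniteField.sum_pow_units, hq,
        if_neg (arith_two hm hi hj), add_zero, if_congr (arith_one hm hi hj) rfl rfl, ite_and]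
    rw [Finset.sum_congr rfl h7, Finset.sum_ite_eq', if_pos (Finset.mem_range.2 (by omega))]
  have h8 : ∑ y : F, ((y + 1) ^ (3 * 2 ^ m - 1) + y ^ (3 * 2 ^ m - 1)) * τ (A y) = 0 := by
    simp only [add_mul, Finset.sum_add_distrib]
    rw [← Equiv.sum_comp (Equiv.addRight (1 : F)) (fun y => (y + 1) ^ (3 * 2 ^ m - 1) * τ (A y))]
    simp only [Equiv.coe_addRight, h1, add_assoc, CharTwo.add_self_eq_zero, add_zero]
  simp only [szas_expand, add_mul, Finset.sum_add_distrib, Finset.sum_mul] at h8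
  rw [Finset.sum_comm, Finset.sum_comm (s := Finset.univ),
    Finset.sum_congr rfl fun j hj => hS j (Or.inl (Finset.mem_range.1 hj)),
    Finset.sum_congr rfl fun j hj => (hS (2 * 2 ^ m + j)
      (Or.inr ⟨by omega, by have := Finset.mem_range.1 hj; omega⟩)).trans (if_neg (by omega)),
    Finset.sum_ite_eq', if_pos (Finset.mem_range.2 (by omega))] at h8
  simp at h8

end Cfsg.Lib.BGK
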