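import Cfsg.Agent.Lib.BGK.Def
import Cfsg.Agent.Lib.BGK.SzAS

/-! S3935: a non-trivial fixed point of the two-variable sequence in the Suzuki groups. -/

set_option autoImplicit false

namespace Cfsg.Lib.BGK

open Matrix Cfsg.Lib.Sz

variable {F G : Type*} [Field F] [Group G]

theorem tr_anti [CharP F 2] (A B C D E G H K L N : F) {e i : Matrix (Fin 4) (Fin 4) F}
    (he : e = !![A, B, C, D; E, G, H, 0; K, L, 0, 0; N, 0, 0, 0])
    (hi : i = !![1, 0, 1, 1; 0, 1, 0, 1; 0, 0, 1, 0; 0, 0, 0, 1]) :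
    e.trace = A + G ∧ (e * e).trace = (A + G) ^ 2 ∧ (i * e * e * i * e).trace = (e * e * e).trace +
      (((K + N) ^ 2 + L * N) * A + (K + N) * L * E + (K + N) * N * B + L * N * G) := by
  subst he hi
  simp only [mul_fin_four, Matrix.trace, Fin.sum_univ_four, diag_apply, of_apply, cons_val', cons_val_zero,
    cons_val_one, cons_val_fin_one, cons_val]
  refine ⟨by ring, ?_, ?_⟩ <;> grind

variable (M : Model F G)

theorem mat_u01 : M.mat (M.u 0 1) = !![1, 0, 1, 1; 0, 1, 0, 1; 0, 0, 1, 0; 0, 0, 0, 1] := by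
  simp [M.mat_u, Tits.uM, Tits.f]

theorem u01_w_pow : (M.u 0 1 * M.w) ^ 5 = 1 := by
  have := M.charP
  refine M.mat_inj ?_
  simp only [pow_succ, pow_zero, one_mul, map_mul, mat_u01, M.mat_w, wM, mul_fin_four, map_one, one_fin_four, mat4_ext]
  refine ⟨⟨?_, ?_, ?_, ?_⟩, ⟨?_, ?_, ?_, ?_⟩, ⟨?_, ?_, ?_, ?_⟩, ⟨?_, ?_, ?_, ?_⟩⟩ <;> grind

include M in
theorem bk_sz_of [Finite F] {m : ℕ} (hm : 1 ≤ m) (hF : Nat.card F = 2 ^ (2 * m + 1)) {r n : F} (hr : r ≠ 0)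
    (h : r ^ 2 + n ^ 2 + r * M.σ r + n * M.σ r + M.σ n = 1)
    (hW : (n + M.σ r) * M.σ n / (r ^ 2 * M.σ r) ∉ M.AS) : BK G := by
  have := M.charP
  have hn : n ≠ 0 := by rintro rfl; exact hW (by simp)
  have h1 := M.σ_ne_zero hn
  have h2 := M.σ_ne_zero hr
  obtain ⟨y, hy⟩ := M.mem_AS.1 (M.add_mem_AS.2 (iff_of_false hW M.one_not_mem_AS))
  obtain ⟨e, he⟩ : ∃ e, e = M.u (r / n) (r / n * (M.σ r / M.σ n) * y) * M.h (Units.mk0 _ (div_ne_zero hn h1)) * M.w :=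
    ⟨_, rfl⟩
  have h3 : M.mat e = !![(n + M.σ r) / n, r * M.σ r * (y + 1) / n ^ 2, r / M.σ n, n⁻¹;
      r * M.σ r * y / M.σ n, M.σ r / n, n / M.σ n, 0; r, M.σ n / n, 0, 0; n, 0, 0, 0] := by
    have h4 : M.σ y = (n + M.σ r) * M.σ n / (r ^ 2 * M.σ r) + 1 + y := by grind
    simp only [he, map_mul, M.mat_u, M.mat_h, M.mat_w, Tits.uM_mul_hM, wM, mul_fin_four, mat4_ext, Units.val_mk0,
      Tits.f, map_div₀, M.σσ, h4, mul_zero, mul_one, add_zero, zero_add, and_self, and_true]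
    refine ⟨⟨?_, ?_, ?_, ?_⟩, ⟨?_, ?_⟩, ⟨?_, ?_⟩, ?_⟩ <;> field_simp
    grind
  obtain ⟨k1, k2, k3⟩ := tr_anti _ _ _ _ _ _ _ _ _ _ h3 (mat_u01 M)
  have k4 : (n + M.σ r) / n + M.σ r / n = 1 := by field_simp; grind
  rw [k4] at k1 k2
  have h5 : e ^ 5 = 1 := by
    obtain ⟨c, hc⟩ := isConj_iff.1 (M.isConj_of_tr hm hF (x := M.u 0 1 * M.w) (y := e)
      (by rw [M.tr_u_zero_w, map_one]; exact one_ne_zero) (by rw [M.tr_u_zero_w, map_one]; exact k1.symm))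
    rw [← hc, conj_pow, u01_w_pow, mul_one, mul_inv_cancel]
  have h6 : M.tr (e * e * e) = 1 := by
    rw [← M.tr_inv hm hF, inv_eq_of_mul_eq_one_right (b := e * e) (by rw [← h5]; simp only [pow_succ, pow_zero, one_mul, mul_assoc]),
      Model.tr, map_mul, k2, one_pow]
  refine bk_of_five (e := e) (i := M.u 0 1) (fun e1 => ?_) h5 (by rw [M.u_sq]; simp)
    (by_contra fun h7 => M.tr_ne_zero hm hF h7 ?_)
  · rw [e1, map_one, trace_one, Fintype.card_fin] at k1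
    grind
  · simp only [Model.tr, map_mul] at h6 ⊢
    rw [k3, h6]
    field_simp
    grind

theorem bk_sz_of_k [Finite F] {m : ℕ} (hm : 1 ≤ m) (hF : Nat.card F = 2 ^ (2 * m + 1)) {k : F}
    (h : M.σ k * (k + 1) / (k * (M.σ k + k ^ 2 + 1)) ∉ M.AS) : BK G := by
  have := M.charP
  have hk : k ≠ 0 := by rintro rfl; exact h (by simp)
  have h1 := M.σ_ne_zero hk
  have h2 : k + M.σ k + 1 ≠ 0 := fun e => M.σ_add_self_ne_one k (by grind)
  have h3 : M.σ k + k ^ 2 + 1 ≠ 0 := by simpa [M.σσ] using M.σ_ne_zero h2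
  have s1 : ∀ s, M.σ s + s ∈ M.AS := fun s => ⟨s, rfl⟩
  have s2 : ∀ s, s ^ 2 + s ∈ M.AS := fun s => M.add_mem_AS.2 M.sq_mem_AS
  refine bk_sz_of M hm hF (r := (k + M.σ k + 1) ^ 2 / M.σ k) (n := k ^ 2 + 1 + (k + M.σ k + 1) ^ 2 / M.σ k)
    (div_ne_zero (pow_ne_zero 2 h2) h1) ?_ fun h4 => h ?_
  · simp only [map_add, map_div₀, map_pow, map_one, M.σσ]
    generalize (k + M.σ k + 1) ^ 2 / M.σ k = r
    field_simp
    grind
  · have h5 := add_mem h4 (add_mem (s2 (((k + 1) * (M.σ k + 1) * k / (M.σ k + k ^ 2 + 1) + (k + M.σ k) +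
      (M.σ k + k ^ 2 + 1) / k) * M.σ k / (k + M.σ k + 1) ^ 2)) (s1 ((k + 1) * k / (M.σ k + k ^ 2 + 1) +
      (k + 1) ^ 2 * k * M.σ k / ((M.σ k + k ^ 2 + 1) * (k + M.σ k + 1) ^ 2) + (M.σ k + 1) / (k + M.σ k + 1))))
    simp only [map_add, map_div₀, map_pow, map_mul, map_one, M.σσ] at h5
    rw [show k ^ 2 + M.σ k ^ 2 + 1 = (k + M.σ k + 1) ^ 2 by grind] at h5
    convert h5 using 1
    generalize M.σ k = j at *
    field_simp
    grind

include M in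
theorem bk_sz [Finite F] {m : ℕ} (hm : 1 ≤ m) (hF : Nat.card F = 2 ^ (2 * m + 1)) (ht : ∃ t : F, t ≠ 0 ∧ t ≠ 1) :
    BK G := by
  have := M.charP
  by_cases h1 : m = 1
  · subst h1
    obtain ⟨k, hk⟩ : ∃ k : F, k ^ 3 = k + 1 := by
      obtain ⟨t, h0, h1⟩ := ht
      let := Fintype.ofFinite F
      have h2 := FiniteField.pow_card t
      rw [← Nat.card_eq_fintype_card, hF] at h2
      by_cases h3 : t ^ 3 = t + 1
      · exact ⟨t, h3⟩
      · exact ⟨t + 1, by grind⟩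
    have h2 : M.σ k = k ^ 2 + k := by rw [M.σ_eq_pow hF]; grind
    refine bk_sz_of_k M hm hF (k := k) fun h => M.one_not_mem_AS ?_
    have h3 : k ∈ M.AS := M.sq_mem_AS.1 ⟨k, by change M.σ k + k = _; grind⟩
    have h4 : k ≠ 0 := by grind
    have h5 : k + 1 ≠ 0 := by grind
    convert add_mem h h3 using 1
    rw [h2, show k ^ 2 + k + k ^ 2 + 1 = k + 1 by grind]
    field_simp
    grind
  have key : ∀ x : F, x ≠ 0 → x + 1 ≠ 0 → x ^ 3 / M.σ x ^ 2 + x ^ 3 / M.σ x + (x + 1) ^ 3 / (M.σ x + 1) +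
      (x + 1) ^ 2 / (M.σ x + 1) ∉ M.AS → BK G := fun x h0 h1 h => by
    have h2 := M.σ_ne_zero h0
    have h3 : M.σ x + 1 ≠ 0 := by simpa using M.σ_ne_zero h1
    have h4 : x + M.σ x ≠ 0 := fun e => by rcases M.σ_eq_self (x := x) (by grind) with h | h <;> grind
    have h5 : M.σ x + x ^ 2 ≠ 0 := by simpa [M.σσ] using M.σ_ne_zero h4
    refine bk_sz_of_k M hm hF (k := M.σ x / (x + M.σ x)) fun h6 => h ?_
    simp only [map_add, map_div₀, M.σσ] at h6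
    rw [show x ^ 2 / (M.σ x + x ^ 2) + (M.σ x / (x + M.σ x)) ^ 2 + 1 =
      M.σ x * x ^ 2 * (M.σ x + 1) / ((M.σ x + x ^ 2) * (x + M.σ x) ^ 2) by field_simp; grind] at h6
    convert h6 using 1
    field_simp
    grind
  obtain ⟨x, hx⟩ := exists_not_AS M (m := m) (by omega) hF
  have h0 : x ≠ 0 := by rintro rfl; exact hx (by simp [CharTwo.add_self_eq_zero])
  have h2 : x + 1 ≠ 0 := fun e => by
    obtain rfl : x = 1 := by grind
    exact hx (by simp [CharTwo.add_self_eq_zero])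
  by_contra hG
  have h3 := not_not.1 (mt (key x h0 h2) hG)
  have h4 := not_not.1 (mt (key (x + 1) h2 (by grind)) hG)
  have h5 := add_mem (add_mem h3 h4) (M.mem_AS.2 ⟨M.σ x / x + (M.σ x + 1) / (x + 1), rfl⟩)
  simp only [map_add, map_div₀, map_one, M.σσ, add_assoc x 1 1, add_assoc (M.σ x) 1 1, CharTwo.add_self_eq_zero,
    add_zero] at h5
  refine hx ?_
  convert h5 using 1
  rw [show x ^ 2 + 1 = (x + 1) ^ 2 by grind]
  generalize x ^ 3 / M.σ x ^ 2 = a, x ^ 3 / M.σ x = b, (x + 1) ^ 3 / (M.σ x + 1) = c, (x + 1) ^ 2 / (M.σ x + 1) = d,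
    (x + 1) ^ 3 / (M.σ x + 1) ^ 2 = e, x ^ 2 / M.σ x = f, M.σ x / x = g, (M.σ x + 1) / (x + 1) = h
  clear * - this
  grind

end Cfsg.Lib.BGK
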